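import Cfsg.Agent.H979.U33.ElWd

/-!
# An element of order 27 of the Baby Monster: kernel check `(k₀ k₁ t)^9 = 1` (helper979)
-/

set_option autoImplicit false
set_option maxRecDepth 100000
set_option Elab.async false

namespace Cfsg.Agent.H979.El

open Cfsg.Agent.BabyM.Conc Cfsg.Agent.BabyM.Inst Cfsg.Agent.BabyM.TransInv Cfsg.Agent.H819.U33 Cfsg.Agent.H863.U33
open Cfsg.Agent.BM.StageW
open Cfsg.Agent

theorem c_x0 : chk (pw wx0 9) [] = true := by decide +kernel

end Cfsg.Agent.H979.El
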