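import Cfsg.Agent.H863.U33.Words

/-!
# An element of order 27 of the Baby Monster: the words (helper979)

`x = k₀ k₁ t e₀` in the 3-local subgroup `C(y₁)` of `H863.U33`.
-/

set_option autoImplicit false
set_option maxRecDepth 100000
set_option Elab.async false

namespace Cfsg.Agent.H979.El

open Cfsg.Agent.BabyM.Conc Cfsg.Agent.BabyM.Inst Cfsg.Agent.BabyM.TransInv Cfsg.Agent.H819.U33 Cfsg.Agent.H863.U33
open Cfsg.Agent.BM.StageW
open Cfsg.Agent

/-- the vector fixed by `x` on `P / ⟨y₁⟩` -/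
def v0 : Fin 8 → ZMod 3 := ![1, 2, 2, 2, 1, 1, 0, 2]

/-- the word of `x₀` -/
def wx0 : List Ltr := wk0 ++ wk1 ++ H863.U33.wt

/-- the word of `x` -/
def wx : List Ltr := wx0 ++ we0

end Cfsg.Agent.H979.El
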